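import Mathlib
import Cfsg.Agent.Lib.ZStar.Section
import Cfsg.Agent.Lib.Transfer.SmallSylow

/-!
# Groups with Klein four Sylow 2-subgroups and one class of involutions: the group theory

The hypotheses are bundled in `Ctx G`.  The centralizer of an involution has a normal 2-complement,
and we count the involutions `a` such that `a J` has even order.
-/

set_option autoImplicit false
set_option linter.unusedSectionVars false
set_option linter.style.haveILetI false

namespace Cfsg.Agent.Lib.V4Block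

open Cfsg Subgroup
open scoped Pointwise

universe u

variable {G : Type u} [Group G]

/-- Klein four Sylow 2-subgroups, all involutions conjugate. -/
structure Ctx (G : Type u) [Group G] : Prop where
  card_sylow : ∀ P : Sylow 2 G, Nat.card P = 4
  exp_two : ∀ g : G, (∃ k : ℕ, orderOf g = 2 ^ k) → g * g = 1
  one_class : ∀ s t : G, orderOf s = 2 → orderOf t = 2 → IsConj s t

theorem Ctx.of_sylow [Finite G] (P : Sylow 2 G) (hP : Nat.card P = 4) (hexp : ∀ x : P, x * x = 1)
    (hone : ∀ s t : G, orderOf s = 2 → orderOf t = 2 → IsConj s t) : Ctx G := by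
  refine ⟨fun Q => ?_, fun g hg => ?_, hone⟩
  · rw [← hP]
    exact Nat.card_congr (Sylow.equiv Q P).toEquiv
  · have hz : IsPGroup 2 (zpowers g) := by
      obtain ⟨k, hk⟩ := hg
      exact IsPGroup.of_card (n := k) (by rw [Nat.card_zpowers, hk])
    obtain ⟨Q, hQ⟩ := hz.exists_le_sylow
    obtain ⟨h, rfl⟩ := MulAction.exists_smul_eq G P Q
    have hg' : g ∈ ((h • P : Sylow 2 G) : Subgroup G) := hQ (mem_zpowers g)
    rw [Sylow.coe_subgroup_smul, Subgroup.mem_pointwise_smul_iff_inv_smul_mem] at hg'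
    have h3 : (MulAut.conj h)⁻¹ • g = h⁻¹ * g * h := by
      rw [← map_inv, MulAut.smul_def, MulAut.conj_apply]
      group
    rw [h3] at hg'
    have h1 := hexp ⟨_, hg'⟩
    have h2 : (h⁻¹ * g * h) * (h⁻¹ * g * h) = 1 := congrArg Subtype.val h1
    have h4 : h⁻¹ * (g * g) * h = 1 := by
      calc h⁻¹ * (g * g) * h = (h⁻¹ * g * h) * (h⁻¹ * g * h) := by group
        _ = 1 := h2
    have h5 : g * g = h * (h⁻¹ * (g * g) * h) * h⁻¹ := by group
    rw [h5, h4]
    group

variable [Finite G]

/-- Elements of a Sylow 2-subgroup have order dividing two. -/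
theorem Ctx.mul_self_of_mem (hG : Ctx G) (Q : Sylow 2 G) {x : G} (hx : x ∈ (Q : Subgroup G)) :
    x * x = 1 := by
  apply hG.exp_two
  have h1 : IsPGroup 2 (Q : Subgroup G) := Q.2
  obtain ⟨k, hk⟩ := h1 ⟨x, hx⟩
  have h2 : orderOf x ∣ 2 ^ k := by
    apply orderOf_dvd_of_pow_eq_one
    have := congrArg Subtype.val hk
    simpa using this
  obtain ⟨j, -, hj⟩ := (Nat.dvd_prime_pow Nat.prime_two).mp h2
  exact ⟨j, hj⟩

theorem Ctx.comm_of_mem (hG : Ctx G) (Q : Sylow 2 G) {x y : G} (hx : x ∈ (Q : Subgroup G))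
    (hy : y ∈ (Q : Subgroup G)) : x * y = y * x := by
  have h1 := hG.mul_self_of_mem Q (Q.toSubgroup.mul_mem hx hy)
  have h2 := hG.mul_self_of_mem Q hx
  have h3 := hG.mul_self_of_mem Q hy
  have h4 : x⁻¹ = x := inv_eq_of_mul_eq_one_left h2
  have h5 : y⁻¹ = y := inv_eq_of_mul_eq_one_left h3
  have h6 : (x * y)⁻¹ = x * y := inv_eq_of_mul_eq_one_left h1
  rw [mul_inv_rev, h4, h5] at h6
  exact h6.symm

theorem orderOf_two_of_mul_self {x : G} (h : x * x = 1) (hne : x ≠ 1) : orderOf x = 2 :=
  orderOf_eq_prime (by rwa [sq]) hne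

theorem mul_self_of_orderOf_two {x : G} (h : orderOf x = 2) : x * x = 1 := by
  have := pow_orderOf_eq_one x
  rwa [h, sq] at this

theorem ne_one_of_orderOf_two {x : G} (h : orderOf x = 2) : x ≠ 1 := by
  rintro rfl
  simp at h

/-- An involution lies in a Sylow subgroup. -/
theorem exists_sylow_mem {J : G} (hJ : orderOf J = 2) : ∃ Q : Sylow 2 G, J ∈ (Q : Subgroup G) := by
  have hz : IsPGroup 2 (zpowers J) :=
    IsPGroup.of_card (n := 1) (by rw [Nat.card_zpowers, hJ, pow_one])
  obtain ⟨Q, hQ⟩ := hz.exists_le_sylow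
  exact ⟨Q, hQ (mem_zpowers J)⟩

/-- Two commuting involutions lie in a Sylow subgroup. -/
theorem exists_sylow_mem₂ {z w : G} (hz : orderOf z = 2) (hw : orderOf w = 2) (hc : Commute z w) :
    ∃ Q : Sylow 2 G, z ∈ (Q : Subgroup G) ∧ w ∈ (Q : Subgroup G) := by
  have h1 : IsPGroup 2 (zpowers z) :=
    IsPGroup.of_card (n := 1) (by rw [Nat.card_zpowers, hz, pow_one])
  have h2 : IsPGroup 2 (zpowers w) :=
    IsPGroup.of_card (n := 1) (by rw [Nat.card_zpowers, hw, pow_one])
  have h3 : zpowers z ≤ normalizer (zpowers w : Set G) := by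
    rw [zpowers_le, Subgroup.mem_normalizer_iff]
    intro y
    constructor
    · intro hy
      have hy' : y ∈ zpowers w := hy
      obtain ⟨n, rfl⟩ := Subgroup.mem_zpowers_iff.mp hy'
      have : z * w ^ n * z⁻¹ = w ^ n := by
        have : Commute z (w ^ n) := hc.zpow_right n
        rw [this.eq]
        group
      change z * w ^ n * z⁻¹ ∈ zpowers w
      rw [this]
      exact hy'
    · intro hy
      have hy' : z * y * z⁻¹ ∈ zpowers w := hy
      obtain ⟨n, hn⟩ := Subgroup.mem_zpowers_iff.mp hy'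
      have : y = w ^ n := by
        have h4 : Commute z (w ^ n) := hc.zpow_right n
        have h5 : y = z⁻¹ * (z * y * z⁻¹) * z := by group
        rw [h5, ← hn, h4.inv_left.eq]
        group
      change y ∈ zpowers w
      rw [this]
      exact zpow_mem_zpowers _ _
  have h4 := IsPGroup.to_sup_of_normal_right' h1 h2 h3
  obtain ⟨Q, hQ⟩ := h4.exists_le_sylow
  exact ⟨Q, hQ (le_sup_left (a := zpowers z) (mem_zpowers z)),
    hQ (le_sup_right (a := zpowers z) (mem_zpowers w))⟩

/-- The four elements of a Sylow subgroup. -/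
theorem Ctx.mem_four (hG : Ctx G) (Q : Sylow 2 G) {J w x : G} (hJ : J ∈ (Q : Subgroup G))
    (hw : w ∈ (Q : Subgroup G)) (hx : x ∈ (Q : Subgroup G)) (hJ1 : J ≠ 1) (hw1 : w ≠ 1)
    (hwJ : w ≠ J) : x = 1 ∨ x = J ∨ x = w ∨ x = w * J := by
  classical
  by_contra hcon
  push Not at hcon
  obtain ⟨hx1, hxJ, hxw, hxwJ⟩ := hcon
  have hwJ1 : w * J ≠ 1 := by
    intro h
    have h2 := hG.mul_self_of_mem Q hw
    have : J = w := by
      calc J = w * (w * J) := by rw [← mul_assoc, h2, one_mul]
        _ = w := by rw [h, mul_one]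
    exact hwJ this.symm
  have hwJJ : w * J ≠ J := fun h => hw1 (mul_eq_right.mp h)
  have hwJw : w * J ≠ w := fun h => hJ1 (mul_eq_left.mp h)
  let T : Finset G := {x, 1, J, w, w * J}
  have hT : T.card = 5 := by
    have hTdef : T = {x, 1, J, w, w * J} := rfl
    rw [hTdef, Finset.card_insert_of_notMem, Finset.card_insert_of_notMem,
      Finset.card_insert_of_notMem, Finset.card_insert_of_notMem, Finset.card_singleton]
    · simp only [Finset.mem_singleton]; exact hwJw.symm
    · simp only [Finset.mem_insert, Finset.mem_singleton, not_or]; exact ⟨hwJ.symm, hwJJ.symm⟩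
    · simp only [Finset.mem_insert, Finset.mem_singleton, not_or]
      exact ⟨hJ1.symm, hw1.symm, hwJ1.symm⟩
    · simp only [Finset.mem_insert, Finset.mem_singleton, not_or]
      exact ⟨hx1, hxJ, hxw, hxwJ⟩
  have hsub : (T : Set G) ⊆ ((Q : Subgroup G) : Set G) := by
    intro y hy
    simp only [T, Finset.coe_insert, Finset.coe_singleton, Set.mem_insert_iff,
      Set.mem_singleton_iff] at hy
    rcases hy with rfl | rfl | rfl | rfl | rfl
    · exact hx
    · exact Q.toSubgroup.one_mem
    · exact hJ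
    · exact hw
    · exact Q.toSubgroup.mul_mem hw hJ
  have h1 := Set.ncard_le_ncard hsub (Set.toFinite _)
  rw [Set.ncard_coe_finset, hT, ← Nat.card_coe_set_eq] at h1
  have h2 : Nat.card (((Q : Subgroup G) : Set G)) = 4 := hG.card_sylow Q
  omega

/-- The centralizer of a Sylow subgroup has the size of the centralizer of any other. -/
theorem card_centralizer_conj (S : Set G) (g : G) :
    Nat.card (centralizer ((fun x => g * x * g⁻¹) '' S)) = Nat.card (centralizer S) := by
  refine Nat.card_congr ⟨fun x => ⟨g⁻¹ * x * g, ?_⟩, fun x => ⟨g * x * g⁻¹, ?_⟩, ?_, ?_⟩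
  · rw [Subgroup.mem_centralizer_iff]
    intro s hs
    have h1 := Subgroup.mem_centralizer_iff.mp x.2 (g * s * g⁻¹) ⟨s, hs, rfl⟩
    calc s * (g⁻¹ * x * g) = g⁻¹ * ((g * s * g⁻¹) * x) * g := by group
      _ = g⁻¹ * (x * (g * s * g⁻¹)) * g := by rw [h1]
      _ = _ := by group
  · rw [Subgroup.mem_centralizer_iff]
    rintro _ ⟨s, hs, rfl⟩
    have h1 := Subgroup.mem_centralizer_iff.mp x.2 s hs
    calc g * s * g⁻¹ * (g * x * g⁻¹) = g * (s * x) * g⁻¹ := by group
      _ = g * (x * s) * g⁻¹ := by rw [h1]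
      _ = _ := by group
  · intro x
    apply Subtype.ext
    change g * (g⁻¹ * x * g) * g⁻¹ = x
    group
  · intro x
    apply Subtype.ext
    change g⁻¹ * (g * x * g⁻¹) * g = x
    group

theorem card_centralizer_sylow (P Q : Sylow 2 G) :
    Nat.card (centralizer ((Q : Subgroup G) : Set G)) =
      Nat.card (centralizer ((P : Subgroup G) : Set G)) := by
  obtain ⟨h, rfl⟩ := MulAction.exists_smul_eq G P Q
  rw [← card_centralizer_conj ((P : Subgroup G) : Set G) h]
  congr 2

theorem card_centralizer_of_isConj {s t : G} (h : IsConj s t) :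
    Nat.card (centralizer ({s} : Set G)) = Nat.card (centralizer ({t} : Set G)) := by
  obtain ⟨c, hc⟩ := isConj_iff.mp h
  rw [← card_centralizer_conj ({s} : Set G) c]
  congr 2
  simp [hc]

end Cfsg.Agent.Lib.V4Block
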