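import Cfsg.Agent.Lib.V4Block.Formula
import Cfsg.Agent.Lib.Char.FSParity
import Cfsg.Agent.Lib.CharX.Conj

/-!
# The case `ε₁ε₂ε₃ = -1`: Frobenius–Schur indicators and the order of the group
-/

set_option autoImplicit false
set_option linter.unusedSectionVars false
set_option linter.style.haveILetI false

namespace Cfsg.Agent.Lib.V4Block

open Cfsg Subgroup Finset
open Cfsg.Agent.Lib.Blocks.Third Cfsg.Agent.Lib.ZStar.Section
open Cfsg.Agent.Lib.Char.Degree Cfsg.Agent.Lib.Char.OddIndexReal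
open scoped ComplexConjugate Pointwise

universe u

variable {G : Type u} [Group G] [Fintype G] [Fintype (IrrCharacter G)]
variable {M : Ideal AlgInt}

/-- The principal block is closed under complex conjugation. -/
theorem conj_mem_principalBlock {χ : IrrCharacter G} (hχ : χ ∈ principalBlock M G) :
    Cfsg.Agent.Lib.CharX.Conj.conjIrr χ ∈ principalBlock M G := by
  intro g
  have h1 : MemLocalIdeal M (centralChar (fun _ : G => (1 : ℂ)) g⁻¹ - centralChar (χ : G → ℂ) g⁻¹) :=
    hχ g⁻¹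
  have hc : centralizer ({g⁻¹} : Set G) = centralizer ({g} : Set G) := by
    ext x
    rw [Subgroup.mem_centralizer_singleton_iff, Subgroup.mem_centralizer_singleton_iff]
    constructor
    · intro h
      have h2 : Commute x g⁻¹ := h
      exact Commute.inv_right_iff.mp h2
    · intro h
      have h2 : Commute x g := h
      exact h2.inv_right
  have h2 : centralChar (fun _ : G => (1 : ℂ)) g⁻¹ - centralChar (χ : G → ℂ) g⁻¹ =
      centralChar (fun _ : G => (1 : ℂ)) g -
        centralChar (Cfsg.Agent.Lib.CharX.Conj.conjIrr χ : G → ℂ) g := by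
    have hχ1 : conj ((χ : G → ℂ) 1) = (χ : G → ℂ) 1 := by
      rw [← charDegree_natCast (Cfsg.Agent.Lib.Char.Basic.isCharacter_of_isIrrCharacter χ.2)]
      simp
    simp only [centralChar, hc, Cfsg.Agent.Lib.CharX.Conj.conjIrr_apply, hχ1]
    rw [Cfsg.Agent.Lib.Char.Ortho.char_inv_eq_conj
      (Cfsg.Agent.Lib.Char.Basic.isCharacter_of_isIrrCharacter χ.2)]
  rw [← h2]
  exact h1

theorem charDegree_conjIrr (χ : IrrCharacter G) :
    charDegree (Cfsg.Agent.Lib.CharX.Conj.conjIrr χ : G → ℂ) = charDegree (χ : G → ℂ) := by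
  simp [charDegree]

/-- `χ 1 + χ x` is even for an involution `x`. -/
theorem exists_deg_add_value (χ : IrrCharacter G) {x : G} (hx : orderOf x = 2) :
    ∃ m : ℕ, (χ : G → ℂ) 1 + (χ : G → ℂ) x = 2 * m := by
  classical
  letI : Fintype (zpowers x) := Fintype.ofFinite _
  obtain ⟨m, hm⟩ := Cfsg.Agent.Lib.ZStar.EC.exists_sum_eq χ (zpowers x)
  have hx1 : x ≠ 1 := ne_one_of_orderOf_two hx
  have hcard : Nat.card (zpowers x) = 2 := by rw [Nat.card_zpowers, hx]
  let a1 : zpowers x := ⟨1, one_mem _⟩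
  let a2 : zpowers x := ⟨x, mem_zpowers x⟩
  have hne : a1 ≠ a2 := fun h => hx1 (congrArg Subtype.val h).symm
  have huniv : (Finset.univ : Finset (zpowers x)) = {a1, a2} := by
    symm
    apply Finset.eq_univ_of_card
    rw [Finset.card_pair hne, ← Nat.card_eq_fintype_card, hcard]
  rw [huniv, Finset.sum_pair hne, hcard] at hm
  refine ⟨m, ?_⟩
  change (χ : G → ℂ) 1 + (χ : G → ℂ) x = _ at hm
  rw [hm]
  push_cast
  ring

/-- The indicator of an irreducible character of odd degree is not `-1`. -/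
theorem nu_ne_neg_one {χ : IrrCharacter G} (hodd : Odd (charDegree (χ : G → ℂ))) :
    nu (χ : G → ℂ) ≠ -1 := by
  intro hν
  classical
  letI : Fintype (⊥ : Subgroup G) := Fintype.ofFinite _
  have hβ : IsIrrCharacter (⊥ : Subgroup G) (fun _ => (1 : ℂ)) :=
    Cfsg.Agent.Lib.Char.Burnside.isIrrCharacter_one
  have hνβ : nu (fun _ : (⊥ : Subgroup G) => (1 : ℂ)) = 1 := by
    simp [nu]
  obtain ⟨k, hk⟩ := Cfsg.Agent.Lib.Char.FSParity.classInner_even_of_nu_neg ⊥ χ.2 hν hβ hνβ
  rw [Cfsg.Agent.Lib.Char.Ortho.classInner_def] at hk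
  have h1 : ∑ g : (⊥ : Subgroup G), (χ : G → ℂ) g * conj (1 : ℂ) = (χ : G → ℂ) 1 := by
    rw [Fintype.sum_subsingleton _ (1 : (⊥ : Subgroup G))]
    simp
  rw [h1] at hk
  have h2 : Nat.card (⊥ : Subgroup G) = 1 := Subgroup.card_bot
  rw [h2] at hk
  simp only [Nat.cast_one, inv_one, one_mul] at hk
  rw [← charDegree_natCast (Cfsg.Agent.Lib.Char.Basic.isCharacter_of_isIrrCharacter χ.2)] at hk
  have h3 : charDegree (χ : G → ℂ) = 2 * k := by exact_mod_cast hk
  rw [h3] at hodd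
  exact (Nat.not_even_iff_odd.mpr hodd) (even_two_mul k)

/-- Squares have odd order. -/
theorem Ctx.odd_sq (hG : Ctx G) (s : G) : ¬ 2 ∣ orderOf (s * s) := by
  haveI : Fact (Nat.Prime 2) := ⟨Nat.prime_two⟩
  obtain ⟨x, y, hxy, hc, hx2, hy⟩ := Cfsg.Agent.Lib.Blocks.PPart.exists_pPart_y (p := 2) s
  have hxx := hG.exp_two x hx2
  have h1 : s * s = y * y := by
    rw [← hxy]
    calc x * y * (x * y) = x * (y * x) * y := by group
      _ = x * (x * y) * y := by rw [hc.eq]
      _ = (x * x) * y * y := by group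
      _ = y * y := by rw [hxx, one_mul]
  rw [h1, ← sq]
  intro h
  exact hy (h.trans (orderOf_pow_dvd _ ))

open Classical in
/-- The relation between the indicators of the block. -/
theorem Ctx.sum_nu (hG : Ctx G) (hM : IsPModular 2 M) {J : G} (hJ : orderOf J = 2) :
    (∑ χ : IrrCharacter G, if χ ∈ principalBlock M G then
      nu (χ : G → ℂ) * conj ((χ : G → ℂ) J) else 0) = 0 := by
  have h1 : ∀ s : G, secSum M J (s * s) = 0 := fun s => secSum_of_odd hM hJ (hG.odd_sq s)
  have h2 : (Nat.card G : ℂ)⁻¹ * ∑ s : G, secSum M J (s * s) = 0 := by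
    simp [h1]
  have h3 : (∑ χ : IrrCharacter G, if χ ∈ principalBlock M G then
      nu (χ : G → ℂ) * conj ((χ : G → ℂ) J) else 0) =
      (Nat.card G : ℂ)⁻¹ * ∑ s : G, secSum M J (s * s) := by
    unfold secSum
    rw [Finset.sum_comm, Finset.mul_sum]
    refine Finset.sum_congr rfl fun χ _ => ?_
    split_ifs with h
    · rw [← Finset.sum_mul]
      simp only [nu]
      ring
    · simp
  rw [h3, h2]

/-- `χ₁`, `χ₂` are complex conjugate when `ε = (1,1,-1)`. -/
theorem Ctx.degree_eq (hG : Ctx G) (hM : IsPModular 2 M) {J : G} (hJ : orderOf J = 2)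
    {χ₁ χ₂ χ₃ : IrrCharacter G} (h4 : IsFour M χ₁ χ₂ χ₃)
    (hv₁ : (χ₁ : G → ℂ) J = 1) (hv₂ : (χ₂ : G → ℂ) J = 1) (hv₃ : (χ₃ : G → ℂ) J = -1)
    (ho₁ : Odd (charDegree (χ₁ : G → ℂ))) (ho₂ : Odd (charDegree (χ₂ : G → ℂ)))
    (ho₃ : Odd (charDegree (χ₃ : G → ℂ))) :
    charDegree (χ₁ : G → ℂ) = charDegree (χ₂ : G → ℂ) := by
  classical
  have h1 := hG.sum_nu hM hJ (M := M)
  rw [h4.sum_eq (fun χ => nu (χ : G → ℂ) * conj ((χ : G → ℂ) J))] at h1
  simp only [oneI_apply, map_one, mul_one, hv₁, hv₂, hv₃, map_neg] at h1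
  have hν0 : nu ((oneI G : IrrCharacter G) : G → ℂ) = 1 := by
    simp [nu, oneI_apply]
  rw [hν0] at h1
  have hn₁ := nu_ne_neg_one ho₁
  have hn₂ := nu_ne_neg_one ho₂
  have hn₃ := nu_ne_neg_one ho₃
  have hc₁ := nu_cases χ₁.2
  have hc₂ := nu_cases χ₂.2
  have hc₃ := nu_cases χ₃.2
  have hν : nu (χ₁ : G → ℂ) = 0 ∧ nu (χ₃ : G → ℂ) = 1 := by
    rcases hc₁ with h₁ | h₁ | h₁
    · rcases hc₂ with h₂ | h₂ | h₂
      · rcases hc₃ with h₃ | h₃ | h₃
        · rw [h₁, h₂, h₃] at h1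
          norm_num at h1
        · exact ⟨h₁, h₃⟩
        · exact absurd h₃ hn₃
      · rcases hc₃ with h₃ | h₃ | h₃
        · rw [h₁, h₂, h₃] at h1
          norm_num at h1
        · rw [h₁, h₂, h₃] at h1
          norm_num at h1
        · exact absurd h₃ hn₃
      · exact absurd h₂ hn₂
    · rcases hc₂ with h₂ | h₂ | h₂
      · rcases hc₃ with h₃ | h₃ | h₃
        · rw [h₁, h₂, h₃] at h1
          norm_num at h1
        · rw [h₁, h₂, h₃] at h1
          norm_num at h1
        · exact absurd h₃ hn₃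
      · rcases hc₃ with h₃ | h₃ | h₃
        · rw [h₁, h₂, h₃] at h1
          norm_num at h1
        · rw [h₁, h₂, h₃] at h1
          norm_num at h1
        · exact absurd h₃ hn₃
      · exact absurd h₂ hn₂
    · exact absurd h₁ hn₁
  obtain ⟨hν₁, hν₃⟩ := hν
  -- `χ₁` is not real, `χ₃` is real
  have hreal₃ : ∀ g, conj ((χ₃ : G → ℂ) g) = (χ₃ : G → ℂ) g :=
    real_of_nu_ne_zero χ₃.2 (by rw [hν₃]; exact one_ne_zero)
  have hnreal₁ : ∃ s, ((χ₁ : G → ℂ) s).im ≠ 0 := by
    obtain ⟨n, ρ, hρ, e⟩ := χ₁.2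
    have h5 : nu ρ.character = 0 := by rw [e]; exact hν₁
    obtain ⟨s, hs⟩ := (Cfsg.Agent.Lib.Char.FrobSchur.frobeniusSchur ρ hρ).2.mp h5
    exact ⟨s, by rw [← e]; exact hs⟩
  obtain ⟨s, hs⟩ := hnreal₁
  have hmem := conj_mem_principalBlock (M := M) (χ := χ₁) (by
    rw [h4.hB]
    exact Or.inr (Or.inl rfl))
  rw [h4.hB] at hmem
  rcases hmem with h | h | h | h
  · exfalso
    apply h4.hdist.1
    funext g
    have := congrFun h g
    simp only [Cfsg.Agent.Lib.CharX.Conj.conjIrr_apply] at this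
    have h6 := congrArg conj this
    simpa using h6
  · exfalso
    apply hs
    have := congrFun (congrArg Subtype.val h) s
    simp only [Cfsg.Agent.Lib.CharX.Conj.conjIrr_apply] at this
    exact Complex.conj_eq_iff_im.mp this
  · rw [← h, charDegree_conjIrr]
  · exfalso
    apply h4.hdist.2.2.2.2.1
    apply Subtype.ext
    funext g
    have := congrFun (congrArg Subtype.val h) g
    simp only [Cfsg.Agent.Lib.CharX.Conj.conjIrr_apply] at this
    have h6 := congrArg conj this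
    simp only [Complex.conj_conj] at h6
    rw [h6, hreal₃ g]

end Cfsg.Agent.Lib.V4Block
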