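import Cfsg.Agent.Lib.V4Block.Count

/-!
# The principal block: values on the singular elements and the sum formula
-/

set_option autoImplicit false
set_option linter.unusedSectionVars false
set_option linter.style.haveILetI false

namespace Cfsg.Agent.Lib.V4Block

open Cfsg Subgroup Finset
open Cfsg.Agent.Lib.Blocks.Third Cfsg.Agent.Lib.ZStar.Section
open scoped ComplexConjugate Pointwise

universe u

variable {G : Type u} [Group G] [Fintype G] [Fintype (IrrCharacter G)]
variable {M : Ideal AlgInt}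

theorem Ctx.secSum_self (hG : Ctx G) (hM : IsPModular 2 M) {J : G} (hJ : orderOf J = 2) :
    secSum M J J = 4 := by
  haveI : Fact (Nat.Prime 2) := ⟨Nat.prime_two⟩
  obtain ⟨P, hP, hcard⟩ := hG.exists_isComplement hJ
  haveI : (pPrimeCore 2 (centralizer ({J} : Set G))).Normal := inferInstance
  rw [secSum_self_of_complement hM ⟨1, by rw [hJ, pow_one]⟩ hP, hcard]
  norm_num

/-- A character in the principal block is constant on the singular elements. -/
theorem Ctx.value_of_even (hG : Ctx G) (hM : IsPModular 2 M) {J : G} (hJ : orderOf J = 2)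
    {χ : IrrCharacter G} (hχ : χ ∈ principalBlock M G) {g : G} (hg : 2 ∣ orderOf g) :
    (χ : G → ℂ) g = (χ : G → ℂ) J := by
  haveI : Fact (Nat.Prime 2) := ⟨Nat.prime_two⟩
  haveI := hM.2.1.isPrime
  obtain ⟨x, y, hxy, hc, hx2, hy⟩ := Cfsg.Agent.Lib.Blocks.PPart.exists_pPart_y (p := 2) g
  have hx1 : x ≠ 1 := by
    rintro rfl
    rw [one_mul] at hxy
    rw [← hxy] at hg
    exact hy hg
  have hx : orderOf x = 2 := orderOf_two_of_mul_self (hG.exp_two x hx2) hx1
  obtain ⟨t, ht⟩ := isConj_iff.mp (hG.one_class x J hx hJ)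
  set v := t * y * t⁻¹ with hv
  have hvc : Commute J v := by
    rw [← ht, hv]
    exact hc.map (MulAut.conj t) |> fun h => by simpa [MulAut.conj_apply] using h
  have hvo : ¬ 2 ∣ orderOf v := by
    rw [hv, orderOf_conj_eq]
    exact hy
  have hmem : v ∈ centralizer ({J} : Set G) :=
    Subgroup.mem_centralizer_singleton_iff.mpr hvc.eq.symm
  have hcore := hG.mem_core_of_odd hJ ⟨v, hmem⟩ (by rw [Subgroup.orderOf_mk]; exact hvo)
  have h1 := Cfsg.Agent.Lib.Blocks.General.zstar hM ⟨1, by rw [hJ, pow_one]⟩ hcore hχ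
  have h2 : J * v = t * g * t⁻¹ := by
    rw [← ht, hv, ← hxy]
    group
  change (χ : G → ℂ) (J * v) = _ at h1
  rw [h2, Cfsg.Agent.Lib.Char.Basic.isClassFunction_of_isIrrCharacter χ.2 g t] at h1
  exact h1

theorem Ctx.secSum_of_even (hG : Ctx G) (hM : IsPModular 2 M) {J : G} (hJ : orderOf J = 2) {g : G}
    (hg : 2 ∣ orderOf g) : secSum M J g = 4 := by
  classical
  rw [← hG.secSum_self hM hJ]
  unfold secSum
  refine Finset.sum_congr rfl fun χ _ => ?_
  split_ifs with h
  · rw [hG.value_of_even hM hJ h hg]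
  · rfl

theorem secSum_of_odd (hM : IsPModular 2 M) {J : G} (hJ : orderOf J = 2) {g : G}
    (hg : ¬ 2 ∣ orderOf g) : secSum M J g = 0 := by
  refine secSum_eq_zero hM ⟨1, by rw [hJ, pow_one]⟩
    (x := 1) ⟨g, one_mul g, Commute.one_left g, ⟨0, by simp⟩, hg⟩ ?_
  intro h
  have := isConj_one_right.mp h
  exact ne_one_of_orderOf_two hJ this

open Classical in
theorem Ctx.secSum_eq (hG : Ctx G) (hM : IsPModular 2 M) {J : G} (hJ : orderOf J = 2) (g : G) :
    secSum M J g = if 2 ∣ orderOf g then 4 else 0 := by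
  split_ifs with h
  · exact hG.secSum_of_even hM hJ h
  · exact secSum_of_odd hM hJ h

/-- The number of `t` with `t J t⁻¹ = a`. -/
theorem Ctx.card_fiber (hG : Ctx G) {J a : G} (hJ : orderOf J = 2) (ha : orderOf a = 2)
    [DecidablePred fun t => t * J * t⁻¹ = a] :
    (univ.filter fun t => t * J * t⁻¹ = a).card = Nat.card (centralizer ({J} : Set G)) := by
  classical
  obtain ⟨s, hs⟩ := isConj_iff.mp (hG.one_class J a hJ ha)
  rw [← card_cen_eq]
  symm
  refine Finset.card_bij (fun k _ => s * k) ?_ ?_ ?_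
  · intro k hk
    simp only [mem_filter, mem_univ, true_and] at hk ⊢
    rw [← hs]
    have h1 : k * J * k⁻¹ = J := by
      rw [← hk.eq]
      group
    calc s * k * J * (s * k)⁻¹ = s * (k * J * k⁻¹) * s⁻¹ := by group
      _ = _ := by rw [h1]
  · intro x _ y _ h
    exact mul_left_cancel h
  · intro t ht
    simp only [mem_filter, mem_univ, true_and] at ht
    refine ⟨s⁻¹ * t, ?_, by group⟩
    simp only [mem_filter, mem_univ, true_and]
    have h2 : s⁻¹ * t * J * t⁻¹ * s = J := by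
      calc s⁻¹ * t * J * t⁻¹ * s = s⁻¹ * (t * J * t⁻¹) * s := by group
        _ = J := by rw [ht, ← hs]; group
    show J * (s⁻¹ * t) = (s⁻¹ * t) * J
    calc J * (s⁻¹ * t) = (s⁻¹ * t * J * t⁻¹ * s) * (s⁻¹ * t) := by rw [h2]
      _ = _ := by group

/-- The number of `t` with `J (t J t⁻¹)` of even order. -/
theorem Ctx.card_even (hG : Ctx G) {J : G} (hJ : orderOf J = 2)
    [DecidablePred fun t => 2 ∣ orderOf (J * (t * J * t⁻¹))] :
    (univ.filter fun t => 2 ∣ orderOf (J * (t * J * t⁻¹))).card =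
      Nat.card (centralizer ({J} : Set G)) * (E J).card := by
  classical
  have hJJ := inv_eq_of_mul_eq_one_left (mul_self_of_orderOf_two hJ)
  have hmaps : ∀ t ∈ (univ.filter fun t => 2 ∣ orderOf (J * (t * J * t⁻¹))), t * J * t⁻¹ ∈ E J := by
    intro t ht
    simp only [mem_filter, mem_univ, true_and] at ht
    refine mem_E.mpr ⟨by rw [orderOf_conj_eq, hJ], ?_⟩
    have h1 : (t * J * t⁻¹) * J = (J * (t * J * t⁻¹))⁻¹ := by
      have : (t * J * t⁻¹)⁻¹ = t * J * t⁻¹ := by
        rw [conj_inv, hJJ]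
      rw [mul_inv_rev, this, hJJ]
    rw [h1, orderOf_inv]
    exact ht
  rw [Finset.card_eq_sum_card_fiberwise hmaps, mul_comm, ← smul_eq_mul]
  rw [Finset.sum_const_nat (m := Nat.card (centralizer ({J} : Set G)))]
  · rw [smul_eq_mul]
  intro a ha
  obtain ⟨ha2, hev⟩ := mem_E.mp ha
  rw [← hG.card_fiber hJ ha2]
  congr 1
  ext t
  simp only [mem_filter, mem_univ, true_and]
  constructor
  · rintro ⟨-, h⟩
    exact h
  · intro h
    refine ⟨?_, h⟩
    rw [h]
    have h1 : J * a = (a * J)⁻¹ := by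
      have : a⁻¹ = a := inv_eq_of_mul_eq_one_left (mul_self_of_orderOf_two ha2)
      rw [mul_inv_rev, this, hJJ]
    rw [h1, orderOf_inv]
    exact hev

open Classical in
/-- **Brauer's sum formula.** -/
theorem Ctx.sum_formula (hG : Ctx G) (hM : IsPModular 2 M) {J : G} (hJ : orderOf J = 2) :
    (4 * (Nat.card (centralizer ({J} : Set G)) : ℂ) * ((E J).card : ℂ)) =
      (Nat.card G : ℂ) * ∑ χ : IrrCharacter G, if χ ∈ principalBlock M G then
        (χ : G → ℂ) J * (χ : G → ℂ) J * conj ((χ : G → ℂ) J) / (χ : G → ℂ) 1 else 0 := by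
  have h1 : ∑ t : G, secSum M J (J * (t * J * t⁻¹)) =
      ((univ.filter fun t => 2 ∣ orderOf (J * (t * J * t⁻¹))).card : ℂ) * 4 := by
    simp_rw [hG.secSum_eq hM hJ]
    rw [Finset.sum_ite, Finset.sum_const_zero, add_zero, Finset.sum_const, nsmul_eq_mul]
  have h2 : ∑ t : G, secSum M J (J * (t * J * t⁻¹)) =
      (Nat.card G : ℂ) * ∑ χ : IrrCharacter G, if χ ∈ principalBlock M G then
        (χ : G → ℂ) J * (χ : G → ℂ) J * conj ((χ : G → ℂ) J) / (χ : G → ℂ) 1 else 0 := by
    unfold secSum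
    rw [Finset.sum_comm, Finset.mul_sum]
    refine Finset.sum_congr rfl fun χ _ => ?_
    split_ifs with h
    · rw [← Finset.sum_mul, Cfsg.Agent.Lib.Blocks.Weak.sum_conj_mul]
      ring
    · simp
  rw [← h2, h1, hG.card_even hJ]
  push_cast
  ring

end Cfsg.Agent.Lib.V4Block
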