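import Cfsg.Agent.Lib.V4Block.Basic
import Cfsg.Agent.Lib.Blocks.Third

/-!
# The normal complement in the centralizer of an involution
-/

set_option autoImplicit false
set_option linter.unusedSectionVars false
set_option linter.style.haveILetI false

namespace Cfsg.Agent.Lib.V4Block

open Cfsg Subgroup
open scoped Pointwise

universe u

variable {G : Type u} [Group G] [Finite G]

/-- An element centralizing `J` and normalizing a Sylow subgroup through `J` centralizes it. -/
theorem Ctx.centralizes_of_normalizes (hG : Ctx G) {J : G} (hJ : orderOf J = 2) (Q : Sylow 2 G)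
    (hJQ : J ∈ (Q : Subgroup G)) {c : G} (hc : Commute J c)
    (hN : c ∈ normalizer ((Q : Subgroup G) : Set G)) :
    c ∈ centralizer ((Q : Subgroup G) : Set G) := by
  by_contra hcon
  obtain ⟨y, q, k, hq, hk, hy, hyC⟩ := Cfsg.Agent.S0073.exists_prime_pow_power _ c hcon
  haveI : Fact q.Prime := ⟨hq⟩
  have hyN : y ∈ normalizer ((Q : Subgroup G) : Set G) :=
    (zpowers_le.2 hN) hy
  have hyJ : Commute J y := by
    obtain ⟨n, rfl⟩ := Subgroup.mem_zpowers_iff.mp hy
    exact hc.zpow_right n
  by_cases hq2 : q = 2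
  · subst hq2
    have hyQ : y ∈ (Q : Subgroup G) :=
      Cfsg.Agent.Lib.Blocks.Third.mem_sylow_of_mem_normalizer Q ⟨k, hk⟩ hyN
    apply hyC
    rw [Subgroup.mem_centralizer_iff]
    intro s hs
    exact hG.comm_of_mem Q hs hyQ
  · have h1 := Cfsg.Agent.Lib.Transfer.SmallSylow.card_modEq_card_inf_centralizer
      (Q : Subgroup G) hyN hk
    rw [show Nat.card (Q : Subgroup G) = 4 from hG.card_sylow Q] at h1
    set D : Subgroup G := (Q : Subgroup G) ⊓ centralizer ({y} : Set G) with hD
    have hJD : J ∈ D :=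
      Subgroup.mem_inf.mpr ⟨hJQ, Subgroup.mem_centralizer_singleton_iff.mpr hyJ.eq⟩
    have hdvd : Nat.card D ∣ 4 := by
      rw [← show Nat.card (Q : Subgroup G) = 4 from hG.card_sylow Q]
      exact Subgroup.card_dvd_of_le inf_le_left
    have hd1 : Nat.card D ≠ 1 := by
      intro h
      have : D = ⊥ := (Subgroup.card_eq_one).mp h
      rw [this, Subgroup.mem_bot] at hJD
      exact ne_one_of_orderOf_two hJ hJD
    have hd : Nat.card D = 2 ∨ Nat.card D = 4 := by
      have h4 : Nat.card D ≤ 4 := Nat.le_of_dvd (by norm_num) hdvd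
      have h0 : 0 < Nat.card D := Nat.card_pos
      interval_cases hh : Nat.card D
      · exact absurd rfl hd1
      · exact Or.inl rfl
      · norm_num at hdvd
      · exact Or.inr rfl
    rcases hd with hd | hd
    · rw [hd] at h1
      exfalso
      have h2 : q ∣ 4 - 2 := (Nat.modEq_iff_dvd' (by norm_num)).mp h1.symm
      have h3 : q ∣ 2 := h2
      exact hq2 ((Nat.prime_dvd_prime_iff_eq hq Nat.prime_two).mp h3)
    · apply hyC
      have hle : (Q : Subgroup G) ≤ D := by
        apply Subgroup.eq_of_le_of_card_ge inf_le_left ?_ |>.symm.le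
        rw [hd, show Nat.card (Q : Subgroup G) = 4 from hG.card_sylow Q]
      rw [Subgroup.mem_centralizer_iff]
      intro s hs
      have := (Subgroup.mem_inf.mp (hle hs)).2
      rw [Subgroup.mem_centralizer_singleton_iff] at this
      exact this

/-- The Sylow subgroup through `J` lies in `C(J)`. -/
theorem Ctx.sylow_le_centralizer (hG : Ctx G) {J : G} (Q : Sylow 2 G)
    (hJQ : J ∈ (Q : Subgroup G)) : (Q : Subgroup G) ≤ centralizer ({J} : Set G) := by
  intro x hx
  rw [Subgroup.mem_centralizer_singleton_iff]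
  exact hG.comm_of_mem Q hx hJQ

/-- `C(J)` has a normal `2`-complement. -/
theorem Ctx.exists_isComplement (hG : Ctx G) {J : G} (hJ : orderOf J = 2) :
    ∃ P : Sylow 2 (centralizer ({J} : Set G)),
      (pPrimeCore 2 (centralizer ({J} : Set G))).IsComplement'
        (P : Subgroup (centralizer ({J} : Set G))) ∧ Nat.card P = 4 := by
  classical
  haveI : Fact (Nat.Prime 2) := ⟨Nat.prime_two⟩
  obtain ⟨Q, hJQ⟩ := exists_sylow_mem hJ
  set C := centralizer ({J} : Set G) with hC
  have hQC : (Q : Subgroup G) ≤ C := hG.sylow_le_centralizer Q hJQ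
  let P : Sylow 2 C := Q.subtype hQC
  have hPm : ∀ x : C, x ∈ (P : Subgroup C) ↔ (x : G) ∈ (Q : Subgroup G) := by
    intro x
    rw [Sylow.coe_subtype, Subgroup.mem_subgroupOf]
  have hcommC : ∀ c : C, Commute J (c : G) := fun c =>
    (Subgroup.mem_centralizer_singleton_iff.mp c.2).symm
  have hN : normalizer ((P : Subgroup C) : Set C) ≤ centralizer ((P : Subgroup C) : Set C) := by
    intro x hx
    have hxN : (x : G) ∈ normalizer ((Q : Subgroup G) : Set G) := by
      rw [Subgroup.mem_normalizer_iff]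
      intro w
      by_cases hw : w ∈ C
      · have h1 := (Subgroup.mem_normalizer_iff.mp hx) ⟨w, hw⟩
        have h2 := hPm ⟨w, hw⟩
        have h3 := hPm (x * ⟨w, hw⟩ * x⁻¹)
        constructor
        · intro h4
          exact h3.mp (h1.mp (h2.mpr h4))
        · intro h4
          exact h2.mp (h1.mpr (h3.mpr h4))
      · constructor
        · intro h4
          exact absurd (hQC h4) hw
        · intro h4
          exfalso
          apply hw
          have h5 := hQC h4
          have h6 : w = (x : G)⁻¹ * ((x : G) * w * (x : G)⁻¹) * x := by group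
          rw [h6]
          exact C.mul_mem (C.mul_mem (C.inv_mem x.2) h5) x.2
    have h1 := hG.centralizes_of_normalizes hJ Q hJQ (hcommC x) hxN
    rw [Subgroup.mem_centralizer_iff] at h1 ⊢
    intro s hs
    have hs' : (s : G) ∈ (Q : Subgroup G) := (hPm s).mp hs
    exact Subtype.ext (h1 _ hs')
  have hcompl := MonoidHom.ker_transferSylow_isComplement' P hN
  haveI hknorm : (MonoidHom.transferSylow P hN).ker.Normal := inferInstance
  have hV : pPrimeCore 2 C = (MonoidHom.transferSylow P hN).ker := by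
    apply le_antisymm
    · intro v hv
      exact (Cfsg.Agent.Lib.Transfer.Basic.mem_complement_iff hcompl v).mpr
        (Cfsg.Agent.Lib.Core.Basic.orderOf_coprime_of_mem_pPrimeCore hv)
    · exact Cfsg.Agent.Lib.Core.Basic.le_pPrimeCore inferInstance
        (Cfsg.Agent.Lib.Transfer.Basic.coprime_card_of_isComplement' hcompl)
  refine ⟨P, ?_, ?_⟩
  · rw [hV]
    exact hcompl
  · have : Nat.card P = Nat.card (Q : Subgroup G) := by
      rw [Sylow.coe_subtype]
      exact Nat.card_congr (Subgroup.subgroupOfEquivOfLe hQC).toEquiv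
    rw [this]
    exact hG.card_sylow Q

/-- Odd elements of `C(J)` lie in `O(C(J))`. -/
theorem Ctx.mem_core_of_odd (hG : Ctx G) {J : G} (hJ : orderOf J = 2)
    (c : centralizer ({J} : Set G)) (hc : ¬ 2 ∣ orderOf c) :
    c ∈ pPrimeCore 2 (centralizer ({J} : Set G)) := by
  haveI : Fact (Nat.Prime 2) := ⟨Nat.prime_two⟩
  obtain ⟨P, hP, -⟩ := hG.exists_isComplement hJ
  exact (Cfsg.Agent.Lib.Transfer.Basic.mem_complement_iff hP c).mpr
    ((Nat.Prime.coprime_iff_not_dvd Nat.prime_two).mpr hc).symm

theorem not_two_dvd_of_mem_core {K : Type u} [Group K] [Finite K] {c : K}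
    (hc : c ∈ pPrimeCore 2 K) : ¬ 2 ∣ orderOf c := by
  intro h
  have h1 := Cfsg.Agent.Lib.Core.Basic.orderOf_coprime_of_mem_pPrimeCore hc
  have := Nat.eq_one_of_dvd_coprimes h1 h (dvd_refl 2)
  omega

/-- Commutators of elements of `C(J)` have odd order. -/
theorem Ctx.odd_commutator (hG : Ctx G) {J : G} (hJ : orderOf J = 2) {x y : G}
    (hx : Commute J x) (hy : Commute J y) : ¬ 2 ∣ orderOf (x * y * x⁻¹ * y⁻¹) := by
  haveI : Fact (Nat.Prime 2) := ⟨Nat.prime_two⟩
  obtain ⟨P, hP, hcard⟩ := hG.exists_isComplement hJ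
  set C := centralizer ({J} : Set G) with hC
  have hxC : x ∈ C := Subgroup.mem_centralizer_singleton_iff.mpr hx.eq.symm
  have hyC : y ∈ C := Subgroup.mem_centralizer_singleton_iff.mpr hy.eq.symm
  -- the quotient has order four
  set N := pPrimeCore 2 C with hN
  haveI hNn : N.Normal := inferInstance
  have hQ : Nat.card (C ⧸ N) = 4 := by
    rw [← hcard]
    exact hP.symm.index_eq_card
  have hcomm := IsPGroup.isMulCommutative_of_card_eq_prime_sq (p := 2) (G := C ⧸ N)
    (by rw [hQ]; norm_num)
  have hmem : (⟨x, hxC⟩ * ⟨y, hyC⟩ * (⟨x, hxC⟩ : C)⁻¹ * (⟨y, hyC⟩ : C)⁻¹ : C) ∈ N := by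
    rw [← QuotientGroup.eq_one_iff]
    simp only [QuotientGroup.mk_mul, QuotientGroup.mk_inv]
    rw [hcomm.is_comm.comm ((⟨x, hxC⟩ : C) : C ⧸ N)]
    simp
  have h1 := not_two_dvd_of_mem_core hmem
  rw [← Subgroup.orderOf_coe] at h1
  exact h1

end Cfsg.Agent.Lib.V4Block
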