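import Cfsg.Agent.Lib.V4Block.Compl

/-!
# Counting involutions `a` such that `a J` has even order
-/

set_option autoImplicit false
set_option linter.unusedSectionVars false
set_option linter.style.haveILetI false

namespace Cfsg.Agent.Lib.V4Block

open Cfsg Subgroup Finset
open scoped Pointwise

universe u

variable {G : Type u} [Group G] [Fintype G]

open Classical in
/-- The conjugates of `w` under `C(z)`. -/
noncomputable def orb (z w : G) : Finset G :=
  (univ.filter fun c => Commute z c).image fun c => c * w * c⁻¹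

theorem mem_orb {z w a : G} : a ∈ orb z w ↔ ∃ c, Commute z c ∧ c * w * c⁻¹ = a := by
  classical
  simp [orb]

theorem card_filter_eq (p : G → Prop) [DecidablePred p] (H : Subgroup G) (h : ∀ x, p x ↔ x ∈ H) :
    (univ.filter p).card = Nat.card H := by
  classical
  rw [Nat.card_eq_fintype_card]
  symm
  refine (Fintype.card_of_subtype (univ.filter p) ?_).trans rfl |>.trans rfl
  intro x
  simp [h]

/-- Orbit-stabilizer. -/
theorem card_orb_mul (z w : G) [DecidablePred fun k => Commute z k ∧ Commute w k]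
    [DecidablePred fun c => Commute z c] :
    (orb z w).card * (univ.filter fun k => Commute z k ∧ Commute w k).card =
      (univ.filter fun c => Commute z c).card := by
  classical
  have h0 : orb z w = (univ.filter fun c => Commute z c).image fun c => c * w * c⁻¹ := by
    unfold orb
    congr
  rw [Finset.card_eq_sum_card_image (fun c => c * w * c⁻¹) (univ.filter fun c => Commute z c),
    ← h0]
  rw [Finset.sum_const_nat (m := (univ.filter fun k => Commute z k ∧ Commute w k).card)]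
  intro b hb
  obtain ⟨c₀, hc₀, rfl⟩ := mem_orb.mp hb
  symm
  refine Finset.card_bij (fun k _ => c₀ * k) ?_ ?_ ?_
  · intro k hk
    simp only [mem_filter, mem_univ, true_and] at hk ⊢
    refine ⟨hc₀.mul_right hk.1, ?_⟩
    have h1 : k * w * k⁻¹ = w := by
      rw [← hk.2.eq]
      group
    calc c₀ * k * w * (c₀ * k)⁻¹ = c₀ * (k * w * k⁻¹) * c₀⁻¹ := by group
      _ = _ := by rw [h1]
  · intro a _ b _ h
    exact mul_left_cancel h
  · intro c hc
    simp only [mem_filter, mem_univ, true_and] at hc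
    refine ⟨c₀⁻¹ * c, ?_, by group⟩
    simp only [mem_filter, mem_univ, true_and]
    refine ⟨hc₀.inv_right.mul_right hc.1, ?_⟩
    have h1 : c * w * c⁻¹ = c₀ * w * c₀⁻¹ := hc.2
    show w * (c₀⁻¹ * c) = (c₀⁻¹ * c) * w
    have h2 : c₀⁻¹ * c * w * c⁻¹ * c₀ = w := by
      calc c₀⁻¹ * c * w * c⁻¹ * c₀ = c₀⁻¹ * (c * w * c⁻¹) * c₀ := by group
        _ = w := by rw [h1]; group
    calc w * (c₀⁻¹ * c) = (c₀⁻¹ * c * w * c⁻¹ * c₀) * (c₀⁻¹ * c) := by rw [h2]
      _ = _ := by group

/-- The centralizer of two commuting involutions. -/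
theorem Ctx.card_cen₂ (hG : Ctx G) {z w : G} (hz : orderOf z = 2) (hw : orderOf w = 2)
    (hc : Commute z w) (hne : w ≠ z) (P : Sylow 2 G)
    [DecidablePred fun k => Commute z k ∧ Commute w k] :
    (univ.filter fun k => Commute z k ∧ Commute w k).card =
      Nat.card (centralizer ((P : Subgroup G) : Set G)) := by
  obtain ⟨Q, hzQ, hwQ⟩ := exists_sylow_mem₂ hz hw hc
  rw [← card_centralizer_sylow P Q]
  apply card_filter_eq
  intro k
  rw [Subgroup.mem_centralizer_iff]
  constructor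
  · rintro ⟨h1, h2⟩ x hx
    rcases hG.mem_four Q hzQ hwQ hx (ne_one_of_orderOf_two hz) (ne_one_of_orderOf_two hw) hne with
      rfl | rfl | rfl | rfl
    · simp
    · exact h1.eq
    · exact h2.eq
    · exact ((h2.mul_left h1)).eq
  · intro h
    exact ⟨h z hzQ, h w hwQ⟩

theorem card_cen_eq (z : G) [DecidablePred fun c => Commute z c] :
    (univ.filter fun c => Commute z c).card = Nat.card (centralizer ({z} : Set G)) := by
  apply card_filter_eq
  intro c
  rw [Subgroup.mem_centralizer_singleton_iff]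
  exact ⟨fun h => h.eq.symm, fun h => h.symm⟩

/-- The size of an orbit. -/
theorem Ctx.card_orb_mul' (hG : Ctx G) {z w J : G} (hz : orderOf z = 2) (hw : orderOf w = 2)
    (hJ : orderOf J = 2) (hc : Commute z w) (hne : w ≠ z) (P : Sylow 2 G) :
    (orb z w).card * Nat.card (centralizer ((P : Subgroup G) : Set G)) =
      Nat.card (centralizer ({J} : Set G)) := by
  classical
  rw [← hG.card_cen₂ hz hw hc hne P, card_orb_mul, card_cen_eq]
  exact card_centralizer_of_isConj (hG.one_class z J hz hJ)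

/-- Sylow subgroups through `J` are conjugate in `C(J)`. -/
theorem Ctx.exists_conj_sylow (hG : Ctx G) {J : G} (Q₁ Q₂ : Sylow 2 G)
    (h₁ : J ∈ (Q₁ : Subgroup G)) (h₂ : J ∈ (Q₂ : Subgroup G)) :
    ∃ c, Commute J c ∧ ∀ x ∈ (Q₂ : Subgroup G), c * x * c⁻¹ ∈ (Q₁ : Subgroup G) := by
  set C := centralizer ({J} : Set G) with hC
  have h1C : (Q₁ : Subgroup G) ≤ C := hG.sylow_le_centralizer Q₁ h₁
  have h2C : (Q₂ : Subgroup G) ≤ C := hG.sylow_le_centralizer Q₂ h₂
  obtain ⟨c, hc⟩ := MulAction.exists_smul_eq C (Q₂.subtype h2C) (Q₁.subtype h1C)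
  refine ⟨c, (Subgroup.mem_centralizer_singleton_iff.mp c.2).symm, fun x hx => ?_⟩
  have hx' : (⟨x, h2C hx⟩ : C) ∈ ((Q₂.subtype h2C : Sylow 2 C) : Subgroup C) := by
    rw [Sylow.coe_subtype, Subgroup.mem_subgroupOf]
    exact hx
  have h3 : (MulAut.conj c) • (⟨x, h2C hx⟩ : C) ∈
      ((c • Q₂.subtype h2C : Sylow 2 C) : Subgroup C) := by
    rw [Sylow.coe_subgroup_smul]
    exact Subgroup.smul_mem_pointwise_smul _ _ _ hx'
  rw [hc, Sylow.coe_subtype, Subgroup.mem_subgroupOf, MulAut.smul_def, MulAut.conj_apply] at h3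
  exact h3

open Classical in
/-- The involutions commuting with `J`, other than `J`. -/
noncomputable def X (J : G) : Finset G :=
  univ.filter fun z => orderOf z = 2 ∧ Commute J z ∧ z ≠ J

theorem mem_X {J z : G} : z ∈ X J ↔ orderOf z = 2 ∧ Commute J z ∧ z ≠ J := by
  classical
  simp [X]

theorem orderOf_conj_eq (c w : G) : orderOf (c * w * c⁻¹) = orderOf w := by
  have := (MulAut.conj c).orderOf_eq w
  simpa [MulAut.conj_apply] using this

theorem orderOf_mul_two {w J : G} (hw : orderOf w = 2) (hJ : orderOf J = 2) (hc : Commute w J)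
    (hne : w ≠ J) : orderOf (w * J) = 2 := by
  apply orderOf_two_of_mul_self
  · have h1 := mul_self_of_orderOf_two hw
    have h2 := mul_self_of_orderOf_two hJ
    calc w * J * (w * J) = w * (J * w) * J := by group
      _ = w * (w * J) * J := by rw [hc.eq]
      _ = (w * w) * (J * J) := by group
      _ = 1 := by rw [h1, h2, one_mul]
  · intro h
    apply hne
    have h2 := mul_self_of_orderOf_two hJ
    calc w = w * (J * J) := by rw [h2, mul_one]
      _ = (w * J) * J := by group
      _ = J := by rw [h, one_mul]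

open Classical in
/-- `X J` is the union of two orbits. -/
theorem Ctx.X_eq (hG : Ctx G) {J w : G} (hJ : orderOf J = 2) (hw : orderOf w = 2)
    (hc : Commute J w) (hne : w ≠ J) : X J = orb J w ∪ orb J (w * J) := by
  classical
  have hwJ := orderOf_mul_two hw hJ hc.symm hne
  have hwJc : Commute J (w * J) := (hc.mul_right (Commute.refl J))
  have hwJne : w * J ≠ J := fun h => ne_one_of_orderOf_two hw (mul_eq_right.mp h)
  obtain ⟨Q, hJQ, hwQ⟩ := exists_sylow_mem₂ hJ hw hc
  ext z
  rw [Finset.mem_union, mem_X, mem_orb, mem_orb]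
  constructor
  · rintro ⟨hz, hcz, hnez⟩
    obtain ⟨Q₂, hJ₂, hz₂⟩ := exists_sylow_mem₂ hJ hz hcz
    obtain ⟨c, hc₁, hc₂⟩ := hG.exists_conj_sylow Q Q₂ hJQ hJ₂
    have h1 := hc₂ z hz₂
    have hzc : orderOf (c * z * c⁻¹) = 2 := by rw [orderOf_conj_eq, hz]
    have hconjinv : c⁻¹ * (c * z * c⁻¹) * c = z := by group
    rcases hG.mem_four Q hJQ hwQ h1 (ne_one_of_orderOf_two hJ) (ne_one_of_orderOf_two hw) hne with
      h | h | h | h
    · exact absurd h (ne_one_of_orderOf_two hzc)
    · exfalso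
      apply hnez
      rw [← hconjinv, h, hc₁.inv_right.eq.symm]
      group
    · left
      exact ⟨c⁻¹, hc₁.inv_right, by rw [← hconjinv, h]; group⟩
    · right
      exact ⟨c⁻¹, hc₁.inv_right, by rw [← hconjinv, h]; group⟩
  · rintro (⟨c, hc₁, rfl⟩ | ⟨c, hc₁, rfl⟩)
    · refine ⟨by rw [orderOf_conj_eq, hw], ?_, ?_⟩
      · exact (hc₁.mul_right hc).mul_right hc₁.inv_right
      · intro h
        apply hne
        have : w = c⁻¹ * (c * w * c⁻¹) * c := by group
        rw [this, h, hc₁.inv_right.eq.symm]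
        group
    · refine ⟨by rw [orderOf_conj_eq, hwJ], ?_, ?_⟩
      · exact (hc₁.mul_right hwJc).mul_right hc₁.inv_right
      · intro h
        apply hwJne
        have : w * J = c⁻¹ * (c * (w * J) * c⁻¹) * c := by group
        rw [this, h, hc₁.inv_right.eq.symm]
        group

theorem Ctx.disjoint_orb (hG : Ctx G) {J w : G} (hJ : orderOf J = 2) (hw : orderOf w = 2)
    (hc : Commute J w) : Disjoint (orb J w) (orb J (w * J)) := by
  classical
  rw [Finset.disjoint_left]
  intro a ha hb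
  obtain ⟨c, hc₁, rfl⟩ := mem_orb.mp ha
  obtain ⟨d, hd₁, hd⟩ := mem_orb.mp hb
  -- `e = d⁻¹ c` sends `w` to `w J`
  have he : Commute J (d⁻¹ * c) := hd₁.inv_right.mul_right hc₁
  have h1 := hG.odd_commutator hJ he hc
  have h2 : (d⁻¹ * c) * w * (d⁻¹ * c)⁻¹ * w⁻¹ = J := by
    have h3 : (d⁻¹ * c) * w * (d⁻¹ * c)⁻¹ = w * J := by
      calc (d⁻¹ * c) * w * (d⁻¹ * c)⁻¹ = d⁻¹ * (c * w * c⁻¹) * d := by group
        _ = d⁻¹ * (d * (w * J) * d⁻¹) * d := by rw [hd]
        _ = w * J := by group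
    rw [h3, hc.symm.eq]
    group
  rw [h2, hJ] at h1
  exact h1 (dvd_refl 2)

/-- The number of involutions commuting with `J`. -/
theorem Ctx.card_X_mul (hG : Ctx G) {J : G} (hJ : orderOf J = 2) (P : Sylow 2 G)
    (hJP : J ∈ (P : Subgroup G)) :
    (X J).card * Nat.card (centralizer ((P : Subgroup G) : Set G)) =
      2 * Nat.card (centralizer ({J} : Set G)) := by
  classical
  -- an element of `P` other than `1, J`
  have hex : ∃ w ∈ (P : Subgroup G), w ≠ 1 ∧ w ≠ J := by
    by_contra hcon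
    push Not at hcon
    have hsub : (((P : Subgroup G) : Set G)) ⊆ (({1, J} : Finset G) : Set G) := by
      intro x hx
      by_cases h1 : x = 1
      · simp [h1]
      · simp [hcon x hx h1]
    have h1 := Set.ncard_le_ncard hsub (Set.toFinite _)
    rw [Set.ncard_coe_finset, ← Nat.card_coe_set_eq] at h1
    have h2 : Nat.card (((P : Subgroup G) : Set G)) = 4 := hG.card_sylow P
    have h3 := Finset.card_le_two (a := (1 : G)) (b := J)
    omega
  obtain ⟨w, hwP, hw1, hwJ⟩ := hex
  have hw : orderOf w = 2 := orderOf_two_of_mul_self (hG.mul_self_of_mem P hwP) hw1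
  have hc : Commute J w := hG.comm_of_mem P hJP hwP
  have hwJ2 := orderOf_mul_two hw hJ hc.symm hwJ
  have hwJc : Commute J (w * J) := (hc.mul_right (Commute.refl J))
  have hwJne : w * J ≠ J := fun h => ne_one_of_orderOf_two hw (mul_eq_right.mp h)
  rw [hG.X_eq hJ hw hc hwJ, Finset.card_union_of_disjoint (hG.disjoint_orb hJ hw hc), add_mul,
    hG.card_orb_mul' hJ hw hJ hc hwJ P, hG.card_orb_mul' hJ hwJ2 hJ hwJc hwJne P]
  ring

open Classical in
/-- The involutions `a` with `a J` of even order. -/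
noncomputable def E (J : G) : Finset G :=
  univ.filter fun a => orderOf a = 2 ∧ 2 ∣ orderOf (a * J)

theorem mem_E {J a : G} : a ∈ E J ↔ orderOf a = 2 ∧ 2 ∣ orderOf (a * J) := by
  classical
  simp [E]

theorem two_dvd_of_isPPart {g z : G} (h : IsPPart 2 g z) (hz : orderOf z = 2) : 2 ∣ orderOf g := by
  obtain ⟨o, rfl, hc, -, ho⟩ := h
  have hco : Nat.Coprime (orderOf z) (orderOf o) := by
    rw [hz]
    exact (Nat.Prime.coprime_iff_not_dvd Nat.prime_two).mpr ho
  rw [hc.orderOf_mul_eq_mul_orderOf_of_coprime hco, hz]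
  exact dvd_mul_right 2 _

/-- Elements of the orbit of `z J` under `C(z)` have the `2`-part `z`. -/
theorem Ctx.isPPart_of_mem_orb (hG : Ctx G) {J z a : G} (hJ : orderOf J = 2)
    (hz : z ∈ X J) (ha : a ∈ orb z (z * J)) : IsPPart 2 (a * J) z := by
  obtain ⟨hz2, hzc, hzne⟩ := mem_X.mp hz
  obtain ⟨c, hc, rfl⟩ := mem_orb.mp ha
  have hcJ : Commute z J := hzc.symm
  have hJJ : J⁻¹ = J := inv_eq_of_mul_eq_one_left (mul_self_of_orderOf_two hJ)
  refine ⟨c * J * c⁻¹ * J⁻¹, ?_, ?_, ⟨1, by rw [hz2, pow_one]⟩, ?_⟩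
  · rw [hJJ]
    calc z * (c * J * c⁻¹ * J) = (z * c) * J * c⁻¹ * J := by group
      _ = (c * z) * J * c⁻¹ * J := by rw [hc.eq]
      _ = _ := by group
  · exact ((hc.mul_right hcJ).mul_right hc.inv_right).mul_right hcJ.inv_right
  · exact hG.odd_commutator hz2 hc hcJ

theorem Ctx.mem_E_of_mem_orb (hG : Ctx G) {J z a : G} (hJ : orderOf J = 2)
    (hz : z ∈ X J) (ha : a ∈ orb z (z * J)) : a ∈ E J := by
  obtain ⟨hz2, hzc, hzne⟩ := mem_X.mp hz
  refine mem_E.mpr ⟨?_, two_dvd_of_isPPart (hG.isPPart_of_mem_orb hJ hz ha) hz2⟩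
  obtain ⟨c, hc, rfl⟩ := mem_orb.mp ha
  rw [orderOf_conj_eq]
  exact orderOf_mul_two hz2 hJ hzc.symm hzne

/-- Every element of `E J` arises from an orbit. -/
theorem Ctx.exists_mem_orb_of_mem_E (hG : Ctx G) {J a : G} (hJ : orderOf J = 2)
    (ha : a ∈ E J) : ∃ z ∈ X J, a ∈ orb z (z * J) := by
  classical
  haveI : Fact (Nat.Prime 2) := ⟨Nat.prime_two⟩
  obtain ⟨ha2, hev⟩ := mem_E.mp ha
  have hJJ := mul_self_of_orderOf_two hJ
  have haa := mul_self_of_orderOf_two ha2
  obtain ⟨z, o, hzo, hc, hz2, ho⟩ := Cfsg.Agent.Lib.Blocks.PPart.exists_pPart_y (p := 2) (a * J)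
  have hpart : IsPPart 2 (a * J) z := ⟨o, hzo, hc, hz2, ho⟩
  have hz1 : z ≠ 1 := by
    rintro rfl
    rw [one_mul] at hzo
    rw [← hzo] at hev
    exact ho hev
  have hz : orderOf z = 2 := orderOf_two_of_mul_self (hG.exp_two z hz2) hz1
  -- `z` is a power of `a J`
  have hzm := Cfsg.Agent.Lib.Blocks.PPart.isPPart_mem_zpowers hpart
  obtain ⟨n, hn⟩ := Subgroup.mem_zpowers_iff.mp hzm
  have hzinv : z⁻¹ = z := inv_eq_of_mul_eq_one_left (mul_self_of_orderOf_two hz)
  have hJinv : J⁻¹ = J := inv_eq_of_mul_eq_one_left hJJ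
  have hainv : a⁻¹ = a := inv_eq_of_mul_eq_one_left haa
  have hJz : Commute J z := by
    have h1 : J * (a * J) * J⁻¹ = (a * J)⁻¹ := by
      rw [mul_inv_rev, hJinv, hainv]
      calc J * (a * J) * J = J * a * (J * J) := by group
        _ = J * a := by rw [hJJ, mul_one]
    have h2 : J * z * J⁻¹ = z := by
      rw [← hn]
      have h3 : J * (a * J) ^ n * J⁻¹ = (J * (a * J) * J⁻¹) ^ n := by
        rw [conj_zpow]
      rw [h3, h1, inv_zpow, hn, hzinv]
    calc J * z = (J * z * J⁻¹) * J := by group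
      _ = z * J := by rw [h2]
  have haz : Commute a z := by
    have h1 : a * (a * J) * a⁻¹ = (a * J)⁻¹ := by
      rw [mul_inv_rev, hJinv, hainv]
      calc a * (a * J) * a = (a * a) * J * a := by group
        _ = J * a := by rw [haa, one_mul]
    have h2 : a * z * a⁻¹ = z := by
      rw [← hn]
      have h3 : a * (a * J) ^ n * a⁻¹ = (a * (a * J) * a⁻¹) ^ n := by
        rw [conj_zpow]
      rw [h3, h1, inv_zpow, hn, hzinv]
    calc a * z = (a * z * a⁻¹) * a := by group
      _ = z * a := by rw [h2]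
  have hzJ : z ≠ J := by
    rintro rfl
    -- `a J = J o`, with `o` commuting with `J`, so `a = o`
    have h1 : a = o := by
      have h2 : a = a * z * z := by rw [mul_assoc, hJJ, mul_one]
      rw [h2, ← hzo, hc.eq, mul_assoc, hJJ, mul_one]
    rw [← h1, ha2] at ho
    exact ho (dvd_refl 2)
  have hzX : z ∈ X J := mem_X.mpr ⟨hz, hJz, hzJ⟩
  refine ⟨z, hzX, ?_⟩
  -- `a ∈ X z`
  have haz' : a ≠ z := by
    rintro rfl
    have h1 : o = J := mul_left_cancel hzo.symm |>.symm
    rw [h1, hJ] at ho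
    exact ho (dvd_refl 2)
  have haX : a ∈ X z := mem_X.mpr ⟨ha2, haz.symm, haz'⟩
  rw [hG.X_eq hz hJ hJz.symm hzJ.symm, Finset.mem_union] at haX
  rcases haX with h | h
  · exfalso
    obtain ⟨c, hc₁, rfl⟩ := mem_orb.mp h
    have h1 := hG.odd_commutator hz hc₁ hJz.symm
    have hJinv' : c * J * c⁻¹ * J⁻¹ = c * J * c⁻¹ * J := by rw [hJinv]
    rw [hJinv'] at h1
    exact h1 hev
  · have hcomm : J * z = z * J := hJz.eq
    rwa [hcomm] at h

open Classical in
/-- `E J` is the disjoint union of the orbits. -/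
theorem Ctx.E_eq_biUnion (hG : Ctx G) {J : G} (hJ : orderOf J = 2) :
    E J = (X J).biUnion fun z => orb z (z * J) := by
  classical
  ext a
  rw [Finset.mem_biUnion]
  constructor
  · exact hG.exists_mem_orb_of_mem_E hJ
  · rintro ⟨z, hz, ha⟩
    exact hG.mem_E_of_mem_orb hJ hz ha

/-- The number of involutions `a` with `a J` of even order. -/
theorem Ctx.card_E (hG : Ctx G) {J : G} (hJ : orderOf J = 2) (P : Sylow 2 G)
    (hJP : J ∈ (P : Subgroup G)) :
    (E J).card * Nat.card (centralizer ((P : Subgroup G) : Set G)) ^ 2 =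
      2 * Nat.card (centralizer ({J} : Set G)) ^ 2 := by
  classical
  haveI : Fact (Nat.Prime 2) := ⟨Nat.prime_two⟩
  set cP := Nat.card (centralizer ((P : Subgroup G) : Set G)) with hcP
  set cJ := Nat.card (centralizer ({J} : Set G)) with hcJ
  have h1 : (E J).card = ∑ z ∈ X J, (orb z (z * J)).card := by
    rw [hG.E_eq_biUnion hJ]
    apply Finset.card_biUnion
    intro z₁ h₁ z₂ h₂ hne
    change Disjoint (orb z₁ (z₁ * J)) (orb z₂ (z₂ * J))
    rw [Finset.disjoint_left]
    intro a ha hb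
    exact hne (Cfsg.Agent.Lib.Blocks.PPart.isPPart_unique (hG.isPPart_of_mem_orb hJ h₁ ha)
      (hG.isPPart_of_mem_orb hJ h₂ hb))
  have h2 : (E J).card * cP = (X J).card * cJ := by
    rw [h1, Finset.sum_mul, ← smul_eq_mul]
    rw [Finset.sum_const_nat (m := cJ)]
    · rw [smul_eq_mul]
    intro z hz
    obtain ⟨hz2, hzc, hzne⟩ := mem_X.mp hz
    have hw := orderOf_mul_two hz2 hJ hzc.symm hzne
    refine hG.card_orb_mul' hz2 hw hJ ((Commute.refl z).mul_right hzc.symm) ?_ P
    intro h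
    exact ne_one_of_orderOf_two hJ (mul_eq_left.mp h)
  have h3 := hG.card_X_mul hJ P hJP
  calc (E J).card * cP ^ 2 = ((E J).card * cP) * cP := by ring
    _ = (X J).card * cJ * cP := by rw [h2]
    _ = ((X J).card * cP) * cJ := by ring
    _ = 2 * cJ * cJ := by rw [h3]
    _ = 2 * cJ ^ 2 := by ring

end Cfsg.Agent.Lib.V4Block
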