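import Cfsg.Agent.Lib.V4Block.OfNoCompl

/-!
# Brauer's order formula
-/

set_option autoImplicit false
set_option linter.unusedSectionVars false
set_option linter.style.haveILetI false

namespace Cfsg.Agent.Lib.V4Block

open Cfsg Subgroup Finset
open Cfsg.Agent.Lib.Blocks.Third Cfsg.Agent.Lib.ZStar.Section
open Cfsg.Agent.Lib.Char.Degree
open scoped ComplexConjugate Pointwise

universe u

variable {G : Type u} [Group G] [Fintype G] [Fintype (IrrCharacter G)]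
variable {M : Ideal AlgInt}

/-- The hypothesis that the block consists of four given characters. -/
structure IsFour (M : Ideal AlgInt) (χ₁ χ₂ χ₃ : IrrCharacter G) : Prop where
  hB : principalBlock M G = {χ : IrrCharacter G |
    (χ : G → ℂ) = (fun _ => 1) ∨ χ = χ₁ ∨ χ = χ₂ ∨ χ = χ₃}
  hdist : (χ₁ : G → ℂ) ≠ (fun _ => 1) ∧ (χ₂ : G → ℂ) ≠ (fun _ => 1) ∧
    (χ₃ : G → ℂ) ≠ (fun _ => 1) ∧ χ₁ ≠ χ₂ ∧ χ₁ ≠ χ₃ ∧ χ₂ ≠ χ₃

open Classical in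
theorem IsFour.sum_eq {χ₁ χ₂ χ₃ : IrrCharacter G} (h : IsFour M χ₁ χ₂ χ₃)
    (T : IrrCharacter G → ℂ) :
    (∑ χ : IrrCharacter G, if χ ∈ principalBlock M G then T χ else 0) =
      T (oneI G) + T χ₁ + T χ₂ + T χ₃ := by
  obtain ⟨hB, h1, h2, h3, h12, h13, h23⟩ := h
  have hone : ∀ χ : IrrCharacter G, (χ : G → ℂ) = (fun _ => 1) ↔ χ = oneI G := by
    intro χ
    exact ⟨fun h => Subtype.ext h, fun h => by rw [h]; rfl⟩
  have hf : (univ.filter fun χ : IrrCharacter G => χ ∈ principalBlock M G) =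
      {oneI G, χ₁, χ₂, χ₃} := by
    ext χ
    simp only [mem_filter, mem_univ, true_and, Finset.mem_insert, Finset.mem_singleton, hB,
      Set.mem_ofPred_eq, hone]
  rw [← Finset.sum_filter, hf, Finset.sum_insert, Finset.sum_insert, Finset.sum_insert,
    Finset.sum_singleton]
  · ring
  · simpa using h23
  · simp only [Finset.mem_insert, Finset.mem_singleton, not_or]
    exact ⟨h12, h13⟩
  · simp only [Finset.mem_insert, Finset.mem_singleton, not_or]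
    refine ⟨?_, ?_, ?_⟩
    · exact fun e => h1 ((hone χ₁).mpr e.symm)
    · exact fun e => h2 ((hone χ₂).mpr e.symm)
    · exact fun e => h3 ((hone χ₃).mpr e.symm)

/-- The two relations. -/
theorem Ctx.master (hG : Ctx G) (hM : IsPModular 2 M) {J : G} (hJ : orderOf J = 2) (P : Sylow 2 G)
    (hJP : J ∈ (P : Subgroup G)) {χ₁ χ₂ χ₃ : IrrCharacter G} (h4 : IsFour M χ₁ χ₂ χ₃)
    {ε₁ ε₂ ε₃ : ℤ} (hε : (ε₁ = 1 ∨ ε₁ = -1) ∧ (ε₂ = 1 ∨ ε₂ = -1) ∧ (ε₃ = 1 ∨ ε₃ = -1))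
    (hval : (χ₁ : G → ℂ) J = ε₁ ∧ (χ₂ : G → ℂ) J = ε₂ ∧ (χ₃ : G → ℂ) J = ε₃) :
    1 + (charDegree (χ₁ : G → ℂ) : ℤ) * ε₁ + (charDegree (χ₂ : G → ℂ) : ℤ) * ε₂ +
        (charDegree (χ₃ : G → ℂ) : ℤ) * ε₃ = 0 ∧
    8 * (Nat.card (centralizer ({J} : Set G)) : ℤ) ^ 3 *
        ((charDegree (χ₁ : G → ℂ) : ℤ) * charDegree (χ₂ : G → ℂ) * charDegree (χ₃ : G → ℂ)) =
      (Nat.card G : ℤ) * (((charDegree (χ₁ : G → ℂ) : ℤ) + ε₁) * ((charDegree (χ₂ : G → ℂ) : ℤ) + ε₂) *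
        ((charDegree (χ₃ : G → ℂ) : ℤ) + ε₃)) *
        (Nat.card (centralizer ((P : Subgroup G) : Set G)) : ℤ) ^ 2 := by
  classical
  obtain ⟨hv₁, hv₂, hv₃⟩ := hval
  have hd₁ : (χ₁ : G → ℂ) 1 = (charDegree (χ₁ : G → ℂ) : ℂ) :=
    (charDegree_natCast (Cfsg.Agent.Lib.Char.Basic.isCharacter_of_isIrrCharacter χ₁.2)).symm
  have hd₂ : (χ₂ : G → ℂ) 1 = (charDegree (χ₂ : G → ℂ) : ℂ) :=
    (charDegree_natCast (Cfsg.Agent.Lib.Char.Basic.isCharacter_of_isIrrCharacter χ₂.2)).symm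
  have hd₃ : (χ₃ : G → ℂ) 1 = (charDegree (χ₃ : G → ℂ) : ℂ) :=
    (charDegree_natCast (Cfsg.Agent.Lib.Char.Basic.isCharacter_of_isIrrCharacter χ₃.2)).symm
  have hp₁ : 0 < charDegree (χ₁ : G → ℂ) := charDegree_pos χ₁.2
  have hp₂ : 0 < charDegree (χ₂ : G → ℂ) := charDegree_pos χ₂.2
  have hp₃ : 0 < charDegree (χ₃ : G → ℂ) := charDegree_pos χ₃.2
  set x₁ := charDegree (χ₁ : G → ℂ) with hx₁
  set x₂ := charDegree (χ₂ : G → ℂ) with hx₂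
  set x₃ := charDegree (χ₃ : G → ℂ) with hx₃
  have hx₁0 : (x₁ : ℂ) ≠ 0 := Nat.cast_ne_zero.mpr hp₁.ne'
  have hx₂0 : (x₂ : ℂ) ≠ 0 := Nat.cast_ne_zero.mpr hp₂.ne'
  have hx₃0 : (x₃ : ℂ) ≠ 0 := Nat.cast_ne_zero.mpr hp₃.ne'
  -- the first relation
  have hR1 : 1 + (x₁ : ℤ) * ε₁ + (x₂ : ℤ) * ε₂ + (x₃ : ℤ) * ε₃ = 0 := by
    have h0 : secSum M J 1 = 0 := secSum_of_odd hM hJ (by simp)
    unfold secSum at h0
    rw [h4.sum_eq (fun χ => (χ : G → ℂ) 1 * conj ((χ : G → ℂ) J))] at h0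
    simp only [oneI_apply, map_one, mul_one] at h0
    rw [hv₁, hv₂, hv₃, hd₁, hd₂, hd₃] at h0
    simp only [map_intCast] at h0
    exact_mod_cast h0
  refine ⟨hR1, ?_⟩
  -- the sum formula
  have hSF := hG.sum_formula hM hJ (M := M)
  rw [h4.sum_eq (fun χ => (χ : G → ℂ) J * (χ : G → ℂ) J * conj ((χ : G → ℂ) J) / (χ : G → ℂ) 1)]
    at hSF
  simp only [oneI_apply, map_one, mul_one, div_one] at hSF
  rw [hv₁, hv₂, hv₃, hd₁, hd₂, hd₃] at hSF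
  simp only [map_intCast] at hSF
  have hR3 := hG.card_E hJ P hJP
  set e := (E J).card with he
  set cP := Nat.card (centralizer ((P : Subgroup G) : Set G)) with hcP
  set cJ := Nat.card (centralizer ({J} : Set G)) with hcJ
  set n := Nat.card G with hn
  have hR3' : (e : ℤ) * (cP : ℤ) ^ 2 = 2 * (cJ : ℤ) ^ 2 := by exact_mod_cast hR3
  have hε₁ : (ε₁ : ℂ) ^ 2 = 1 := by
    rcases hε.1 with h | h <;> rw [h] <;> norm_num
  have hε₂ : (ε₂ : ℂ) ^ 2 = 1 := by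
    rcases hε.2.1 with h | h <;> rw [h] <;> norm_num
  have hε₃ : (ε₃ : ℂ) ^ 2 = 1 := by
    rcases hε.2.2 with h | h <;> rw [h] <;> norm_num
  -- clear denominators
  have hR2 : 4 * (cJ : ℤ) * e * ((x₁ : ℤ) * x₂ * x₃) =
      n * ((x₁ : ℤ) * x₂ * x₃ + ε₁ * x₂ * x₃ + ε₂ * x₁ * x₃ + ε₃ * x₁ * x₂) := by
    have h5 : (4 : ℂ) * (cJ : ℂ) * (e : ℂ) * ((x₁ : ℂ) * x₂ * x₃) =
        (n : ℂ) * ((x₁ : ℂ) * x₂ * x₃ + ε₁ * x₂ * x₃ + ε₂ * x₁ * x₃ + ε₃ * x₁ * x₂) := by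
      rw [hSF]
      field_simp
      linear_combination (n : ℂ) * (ε₁ : ℂ) * x₂ * x₃ * hε₁ + (n : ℂ) * (ε₂ : ℂ) * x₁ * x₃ * hε₂ +
        (n : ℂ) * (ε₃ : ℂ) * x₁ * x₂ * hε₃
    exact_mod_cast h5
  obtain ⟨hh₁, hh₂, hh₃⟩ := hε
  rcases hh₁ with rfl | rfl <;> rcases hh₂ with rfl | rfl <;> rcases hh₃ with rfl | rfl <;>
  · simp only [Int.reduceNeg, mul_neg, mul_one, neg_mul, one_mul] at hR1 hR2 ⊢
    first
    | linear_combination (-4 * (cJ : ℤ) * ((x₁ : ℤ) * x₂ * x₃)) * hR3' + (cP : ℤ) ^ 2 * hR2 -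
        (n : ℤ) * (cP : ℤ) ^ 2 * hR1
    | linear_combination (-4 * (cJ : ℤ) * ((x₁ : ℤ) * x₂ * x₃)) * hR3' + (cP : ℤ) ^ 2 * hR2 +
        (n : ℤ) * (cP : ℤ) ^ 2 * hR1

end Cfsg.Agent.Lib.V4Block
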