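import Cfsg.Agent.Lib.V4Block.Rank

/-!
# A group of order `4 g₀` without normal 2-complement has Klein four Sylow subgroups and one class
of involutions
-/

set_option autoImplicit false
set_option linter.unusedSectionVars false
set_option linter.style.haveILetI false

namespace Cfsg.Agent.Lib.V4Block

open Cfsg Subgroup
open scoped Pointwise

universe u

variable {G : Type u} [Group G] [Finite G]

theorem card_sylow_of_card_eq {g₀ : ℕ} (hg₀ : Odd g₀) (hcard : Nat.card G = 4 * g₀) (P : Sylow 2 G) :
    Nat.card P = 4 := by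
  haveI : Fact (Nat.Prime 2) := ⟨Nat.prime_two⟩
  rw [P.card_eq_multiplicity, hcard]
  have h1 : (4 * g₀).factorization 2 = 2 := by
    rw [show 4 * g₀ = 2 ^ 2 * g₀ by ring, Nat.factorization_mul (by norm_num) hg₀.pos.ne',
      Nat.factorization_pow]
    have h2 : g₀.factorization 2 = 0 :=
      Nat.factorization_eq_zero_of_not_dvd (fun h => by
        obtain ⟨k, hk⟩ := hg₀
        omega)
    simp [h2, Nat.Prime.factorization_self Nat.prime_two]
  rw [h1]
  norm_num

/-- **Burnside**: there is an odd element of `N(P)` moving every nontrivial element of `P`. -/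
theorem Ctx.of_no_complement {g₀ : ℕ} (hg₀ : Odd g₀) (hcard : Nat.card G = 4 * g₀)
    (hnc : ¬ ∃ N : Subgroup G, N.Normal ∧ Nat.card N = g₀) : Ctx G := by
  classical
  letI := Fintype.ofFinite G
  haveI : Fact (Nat.Prime 2) := ⟨Nat.prime_two⟩
  obtain ⟨P⟩ : Nonempty (Sylow 2 G) := inferInstance
  have hP := card_sylow_of_card_eq hg₀ hcard P
  have hPcomm := IsPGroup.isMulCommutative_of_card_eq_prime_sq (p := 2) (G := P)
    (by rw [hP]; norm_num)
  have hcomm : ∀ a ∈ (P : Subgroup G), ∀ b ∈ (P : Subgroup G), a * b = b * a := by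
    intro a ha b hb
    have := hPcomm.is_comm.comm (⟨a, ha⟩ : P) ⟨b, hb⟩
    exact congrArg Subtype.val this
  -- Burnside
  have hN : ¬ normalizer ((P : Subgroup G) : Set G) ≤ centralizer ((P : Subgroup G) : Set G) := by
    intro hN
    have hc := MonoidHom.ker_transferSylow_isComplement' P hN
    apply hnc
    refine ⟨(MonoidHom.transferSylow P hN).ker, inferInstance, ?_⟩
    have h1 := hc.card_mul_card
    have hP' : Nat.card (P : Subgroup G) = 4 := hP
    rw [hP', hcard] at h1
    omega
  obtain ⟨x, hxN, hxC⟩ := SetLike.not_le_iff_exists.mp hN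
  obtain ⟨y, q, k, hq, hk, hy, hyC⟩ := Cfsg.Agent.S0073.exists_prime_pow_power _ x hxC
  haveI : Fact q.Prime := ⟨hq⟩
  have hyN : y ∈ normalizer ((P : Subgroup G) : Set G) := (zpowers_le.2 hxN) hy
  have hq2 : q ≠ 2 := by
    rintro rfl
    have hyP : y ∈ (P : Subgroup G) :=
      Cfsg.Agent.Lib.Blocks.Third.mem_sylow_of_mem_normalizer P ⟨k, hk⟩ hyN
    apply hyC
    rw [Subgroup.mem_centralizer_iff]
    intro s hs
    exact hcomm s hs y hyP
  have hqodd : Odd q := hq.odd_of_ne_two hq2
  have h1 := Cfsg.Agent.Lib.Transfer.SmallSylow.card_modEq_card_inf_centralizer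
    (P : Subgroup G) hyN hk
  rw [show Nat.card (P : Subgroup G) = 4 from hP] at h1
  set D : Subgroup G := (P : Subgroup G) ⊓ centralizer ({y} : Set G) with hD
  have hdvd : Nat.card D ∣ 4 := by
    rw [← show Nat.card (P : Subgroup G) = 4 from hP]
    exact Subgroup.card_dvd_of_le inf_le_left
  have hd4 : Nat.card D ≠ 4 := by
    intro hd
    apply hyC
    have hle : (P : Subgroup G) ≤ D := by
      apply Subgroup.eq_of_le_of_card_ge inf_le_left ?_ |>.symm.le
      rw [hd, show Nat.card (P : Subgroup G) = 4 from hP]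
    rw [Subgroup.mem_centralizer_iff]
    intro s hs
    have := (Subgroup.mem_inf.mp (hle hs)).2
    rw [Subgroup.mem_centralizer_singleton_iff] at this
    exact this
  have hd2 : Nat.card D ≠ 2 := by
    intro hd
    rw [hd] at h1
    have h2 : q ∣ 4 - 2 := (Nat.modEq_iff_dvd' (by norm_num)).mp h1.symm
    have h3 : q ∣ 2 := h2
    exact hq2 ((Nat.prime_dvd_prime_iff_eq hq Nat.prime_two).mp h3)
  have hd1 : Nat.card D = 1 := by
    have h4 : Nat.card D ≤ 4 := Nat.le_of_dvd (by norm_num) hdvd
    have h0 : 0 < Nat.card D := Nat.card_pos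
    interval_cases hh : Nat.card D
    · rfl
    · exact absurd rfl hd2
    · norm_num at hdvd
    · exact absurd rfl hd4
  have hDbot : D = ⊥ := Subgroup.card_eq_one.mp hd1
  -- `y` moves every nontrivial element of `P`
  have hmove : ∀ w ∈ (P : Subgroup G), w ≠ 1 → y * w * y⁻¹ ≠ w := by
    intro w hw hw1 h
    have h2 : w ∈ D := by
      refine Subgroup.mem_inf.mpr ⟨hw, Subgroup.mem_centralizer_singleton_iff.mpr ?_⟩
      calc w * y = (y * w * y⁻¹) * y := by rw [h]
        _ = y * w := by group
    rw [hDbot, Subgroup.mem_bot] at h2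
    exact hw1 h2
  have hPc : ∀ w ∈ (P : Subgroup G), y * w * y⁻¹ ∈ (P : Subgroup G) :=
    fun w hw => (Subgroup.mem_normalizer_iff.mp hyN w).mp hw
  -- an involution in `P`
  obtain ⟨u', hu'⟩ := exists_prime_orderOf_dvd_card' (G := P) 2 (by rw [hP]; norm_num)
  set u : G := (u' : G) with hu
  have huP : u ∈ (P : Subgroup G) := u'.2
  have hu2 : orderOf u = 2 := by
    rw [hu, Subgroup.orderOf_coe]
    exact hu'
  -- nontrivial elements are conjugate to `u`
  have hconj : ∀ w ∈ (P : Subgroup G), w ≠ 1 → IsConj w u := by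
    intro w hw hw1
    by_contra hcon
    set w₁ := y * w * y⁻¹ with hw₁
    set w₂ := y * w₁ * y⁻¹ with hw₂
    have hw₁P := hPc w hw
    have hw₂P := hPc w₁ hw₁P
    have hw₁1 : w₁ ≠ 1 := by
      intro h
      apply hw1
      have h2 : w = y⁻¹ * w₁ * y := by rw [hw₁]; group
      rw [h2, h]
      group
    have hw₂1 : w₂ ≠ 1 := by
      intro h
      apply hw₁1
      have h2 : w₁ = y⁻¹ * w₂ * y := by rw [hw₂]; group
      rw [h2, h]
      group
    have h10 : w₁ ≠ w := hmove w hw hw1
    have h21 : w₂ ≠ w₁ := hmove w₁ hw₁P hw₁1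
    have h20 : w₂ ≠ w := by
      intro h
      -- `y²` centralizes `w`, so `y` does
      have hy2 : Commute (y ^ 2) w := by
        have : y ^ 2 * w * (y ^ 2)⁻¹ = w := by
          calc y ^ 2 * w * (y ^ 2)⁻¹ = y * (y * w * y⁻¹) * y⁻¹ := by rw [sq]; group
            _ = w₂ := rfl
            _ = w := h
        calc y ^ 2 * w = (y ^ 2 * w * (y ^ 2)⁻¹) * y ^ 2 := by group
          _ = w * y ^ 2 := by rw [this]
      obtain ⟨m, hm⟩ : Odd (q ^ k) := hqodd.pow
      have hy1 : y ^ (2 * m + 1) = 1 := by
        rw [← hm, ← hk]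
        exact pow_orderOf_eq_one y
      have hy3 : y = ((y ^ 2) ^ m)⁻¹ := by
        rw [← pow_mul]
        apply eq_inv_of_mul_eq_one_left
        rw [← pow_succ', ]
        exact hy1
      have hy4 : Commute y w := by
        rw [hy3]
        exact (hy2.pow_left m).inv_left
      apply h10
      rw [hw₁, hy4.eq]
      group
    have hune : ¬ (u = 1 ∨ u = w ∨ u = w₁ ∨ u = w₂) := by
      rintro (h | h | h | h)
      · exact ne_one_of_orderOf_two hu2 h
      · exact hcon (h ▸ IsConj.refl _)
      · apply hcon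
        rw [h]
        exact isConj_iff.mpr ⟨y, rfl⟩
      · apply hcon
        rw [h]
        exact isConj_iff.mpr ⟨y * y, by rw [hw₂, hw₁]; group⟩
    push Not at hune
    obtain ⟨hu1', huw, huw₁, huw₂⟩ := hune
    let T : Finset G := {u, 1, w, w₁, w₂}
    have hT : T.card = 5 := by
      have hTdef : T = {u, 1, w, w₁, w₂} := rfl
      rw [hTdef, Finset.card_insert_of_notMem, Finset.card_insert_of_notMem,
        Finset.card_insert_of_notMem, Finset.card_insert_of_notMem, Finset.card_singleton]
      · simp only [Finset.mem_singleton]; exact h21.symm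
      · simp only [Finset.mem_insert, Finset.mem_singleton, not_or]; exact ⟨h10.symm, h20.symm⟩
      · simp only [Finset.mem_insert, Finset.mem_singleton, not_or]
        exact ⟨hw1.symm, hw₁1.symm, hw₂1.symm⟩
      · simp only [Finset.mem_insert, Finset.mem_singleton, not_or]
        exact ⟨hu1', huw, huw₁, huw₂⟩
    have hsub : (T : Set G) ⊆ ((P : Subgroup G) : Set G) := by
      intro z hz
      simp only [T, Finset.coe_insert, Finset.coe_singleton, Set.mem_insert_iff,
        Set.mem_singleton_iff] at hz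
      rcases hz with rfl | rfl | rfl | rfl | rfl
      · exact huP
      · exact Subgroup.one_mem _
      · exact hw
      · exact hw₁P
      · exact hw₂P
    have h3 := Set.ncard_le_ncard hsub (Set.toFinite _)
    rw [Set.ncard_coe_finset, hT, ← Nat.card_coe_set_eq] at h3
    have h4 : Nat.card (((P : Subgroup G) : Set G)) = 4 := hP
    omega
  have hexp : ∀ x : P, x * x = 1 := by
    intro x
    by_cases hx : (x : G) = 1
    · have : x = 1 := Subtype.ext hx
      rw [this, one_mul]
    · apply Subtype.ext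
      have h2 := hconj x x.2 hx
      have h3 : orderOf (x : G) = 2 := by
        obtain ⟨c, hc⟩ := isConj_iff.mp h2
        have h4 := orderOf_conj_eq c (x : G)
        rw [hc, hu2] at h4
        exact h4.symm
      exact mul_self_of_orderOf_two h3
  -- every involution is conjugate to `u`
  have hall : ∀ s : G, orderOf s = 2 → IsConj s u := by
    intro s hs
    obtain ⟨Q, hsQ⟩ := exists_sylow_mem hs
    obtain ⟨h, rfl⟩ := MulAction.exists_smul_eq G P Q
    rw [Sylow.coe_subgroup_smul, Subgroup.mem_pointwise_smul_iff_inv_smul_mem] at hsQ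
    have h3 : (MulAut.conj h)⁻¹ • s = h⁻¹ * s * h := by
      rw [← map_inv, MulAut.smul_def, MulAut.conj_apply]
      group
    rw [h3] at hsQ
    have h4 : h⁻¹ * s * h ≠ 1 := by
      intro h5
      apply ne_one_of_orderOf_two hs
      have : s = h * (h⁻¹ * s * h) * h⁻¹ := by group
      rw [this, h5]
      group
    have h5 := hconj _ hsQ h4
    refine IsConj.trans ?_ h5
    exact isConj_iff.mpr ⟨h⁻¹, by group⟩
  exact Ctx.of_sylow P hP hexp fun s t hs ht => (hall s hs).trans (hall t ht).symm

end Cfsg.Agent.Lib.V4Block
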